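import Mathlib

/-!
# An outer automorphism for groups with derived subgroup of prime order
-/

set_option autoImplicit false

namespace Cfsg.Agent.Lib.AutOrb

open Subgroup Multiplicative
open scoped commutatorElement

variable {G : Type*} [Group G] [Finite G] {p : ℕ} [hp : Fact p.Prime]

lemma zmod2_cases : ∀ a : ZMod 2, a = 0 ∨ a = 1 := by decide

/-- A twisted identity map which is an automorphism. -/
theorem exists_mulAut_of_twist (lam : G →* Multiplicative (ZMod p)) (φ : ZMod p → G)
    (c : ZMod p → ZMod p → G)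
    (h1 : ∀ a g, φ a * g = g * φ a * c a (toAdd (lam g)))
    (h2 : ∀ a b, φ a * c a b * φ b = φ (a + b))
    (h3 : ∀ a, lam (φ a) = 1) (h0 : φ 0 = 1) :
    ∃ α : MulAut G, ∀ g, α g = g * φ (toAdd (lam g)) := by
  let f : G →* G :=
    { toFun := fun g => g * φ (toAdd (lam g))
      map_one' := by simp [h0]
      map_mul' := by
        intro g g'
        simp only [map_mul, toAdd_mul]
        rw [← h2]
        calc g * g' * (φ (toAdd (lam g)) * c (toAdd (lam g)) (toAdd (lam g')) * φ (toAdd (lam g')))
            = g * (g' * φ (toAdd (lam g)) * c (toAdd (lam g)) (toAdd (lam g'))) * φ (toAdd (lam g')) := by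
              group
          _ = g * (φ (toAdd (lam g)) * g') * φ (toAdd (lam g')) := by rw [h1]
          _ = _ := by group }
  have hinj : Function.Injective f := by
    rw [injective_iff_map_eq_one]
    intro g hg
    have hg' : g * φ (toAdd (lam g)) = 1 := hg
    have h4 : g = (φ (toAdd (lam g)))⁻¹ := eq_inv_of_mul_eq_one_left hg'
    have h5 : lam g = 1 := by rw [h4, map_inv, h3, inv_one]
    rw [h5] at hg'
    simpa [h0] using hg'
  have hbij : Function.Bijective f := ⟨hinj, Finite.surjective_of_injective hinj⟩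
  exact ⟨MulEquiv.ofBijective f hbij, fun g => rfl⟩

/-- The data needed for the counting argument. -/
theorem exists_auto_data (lam : G →* Multiplicative (ZMod p)) (φ : ZMod p → G)
    (c : ZMod p → ZMod p → G)
    (h1 : ∀ a g, φ a * g = g * φ a * c a (toAdd (lam g)))
    (h2 : ∀ a b, φ a * c a b * φ b = φ (a + b))
    (h3 : ∀ a, lam (φ a) = 1) (h0 : φ 0 = 1)
    (hne : ∃ g, lam g ≠ 1) (hZ : ∀ z ∈ center G, lam z = 1)
    (hφ : ∀ a, a ≠ 0 → φ a ∉ commutator G) :
    ∃ (α : MulAut G) (M : Subgroup G), M.index = p ∧ center G ≤ M ∧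
      ∀ x, x ∉ M → (α x) * x⁻¹ ∉ commutator G := by
  classical
  obtain ⟨α, hα⟩ := exists_mulAut_of_twist lam φ c h1 h2 h3 h0
  refine ⟨α, lam.ker, ?_, ?_, ?_⟩
  · rw [Subgroup.index_ker]
    have hc : Nat.card (Multiplicative (ZMod p)) = p := by
      rw [Nat.card_eq_fintype_card]
      simp
    have h4 : Nat.card lam.range ∣ p := (Subgroup.card_subgroup_dvd_card lam.range).trans (dvd_of_eq hc)
    rcases (Nat.dvd_prime hp.out).mp h4 with h5 | h5
    · exfalso
      obtain ⟨g, hg⟩ := hne
      have h6 : lam.range = ⊥ := Subgroup.card_eq_one.mp h5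
      have h7 : lam g ∈ lam.range := ⟨g, rfl⟩
      rw [h6, Subgroup.mem_bot] at h7
      exact hg h7
    · exact h5
  · intro z hz
    exact hZ z hz
  · intro x hx hmem
    rw [hα] at hmem
    have ha : toAdd (lam x) ≠ 0 := by
      intro h
      apply hx
      rw [MonoidHom.mem_ker]
      exact h
    apply hφ _ ha
    have h4 : x⁻¹ * (x * φ (toAdd (lam x)) * x⁻¹) * x⁻¹⁻¹ ∈ commutator G :=
      (inferInstance : (commutator G).Normal).conj_mem _ hmem x⁻¹
    have h5 : x⁻¹ * (x * φ (toAdd (lam x)) * x⁻¹) * x⁻¹⁻¹ = φ (toAdd (lam x)) := by group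
    rwa [h5] at h4

section ClassTwo

variable (hcen : commutator G ≤ center G)

include hcen

lemma comm_central (x y g : G) : g * ⁅x, y⁆ = ⁅x, y⁆ * g :=
  mem_center_iff.mp (hcen (Subgroup.commutator_mem_commutator (mem_top x) (mem_top y))) g

lemma comm_mul_left' (x x' y : G) : ⁅x * x', y⁆ = ⁅x, y⁆ * ⁅x', y⁆ := by
  have e : ⁅x * x', y⁆ = x * ⁅x', y⁆ * x⁻¹ * ⁅x, y⁆ := by
    simp only [commutatorElement_def]; group
  rw [e, comm_central hcen x' y x]
  simp only [mul_assoc, mul_inv_cancel_left]
  rw [comm_central hcen x y ⁅x', y⁆]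

lemma comm_mul_right' (x y y' : G) : ⁅x, y * y'⁆ = ⁅x, y⁆ * ⁅x, y'⁆ := by
  have h1 : ⁅y * y', x⁆ = ⁅y, x⁆ * ⁅y', x⁆ := comm_mul_left' hcen y y' x
  have e : ∀ u v : G, ⁅u, v⁆ = ⁅v, u⁆⁻¹ := fun u v => (commutatorElement_inv v u).symm
  rw [e x (y * y'), h1, mul_inv_rev, ← e, ← e]
  exact comm_central hcen x y ⁅x, y'⁆

lemma comm_pow_left' (x y : G) (n : ℕ) : ⁅x ^ n, y⁆ = ⁅x, y⁆ ^ n := by
  induction n with
  | zero => simp [commutatorElement_def]
  | succ n ih => rw [pow_succ, comm_mul_left' hcen, ih, pow_succ]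

/-- Hall-Witt free form of the power formula in class two. -/
lemma mul_pow_class_two (x y : G) (n : ℕ) :
    (x * y) ^ n = x ^ n * y ^ n * ⁅y, x⁆ ^ (n.choose 2) := by
  set c := ⁅y, x⁆ with hcdef
  have hswap : ∀ (n : ℕ), y ^ n * x = c ^ n * x * y ^ n := by
    intro n
    rw [hcdef, ← comm_pow_left' hcen y x n, commutatorElement_def]
    group
  have hc : ∀ (m : ℕ) (g : G), g * c ^ m = c ^ m * g := by
    intro m g
    exact (Commute.pow_right (comm_central hcen y x g) m).eq
  induction n with
  | zero => simp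
  | succ n ih =>
    have hch : (n + 1).choose 2 = n + n.choose 2 := by
      rw [Nat.choose_succ_succ' n 1, Nat.choose_one_right]
    rw [pow_succ (x * y), ih, hch, pow_add c, pow_succ x n, pow_succ y n]
    calc x ^ n * y ^ n * c ^ n.choose 2 * (x * y)
        = x ^ n * (y ^ n * x) * y * c ^ n.choose 2 := by
          rw [mul_assoc _ (c ^ n.choose 2), ← hc _ (x * y)]
          group
      _ = x ^ n * (c ^ n * x * y ^ n) * y * c ^ n.choose 2 := by rw [hswap]
      _ = (x ^ n * c ^ n) * (x * (y ^ n * y)) * c ^ n.choose 2 := by group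
      _ = (c ^ n * x ^ n) * (x * (y ^ n * y)) * c ^ n.choose 2 := by rw [hc n (x ^ n)]
      _ = c ^ n * (x ^ n * (x * (y ^ n * y))) * c ^ n.choose 2 := by group
      _ = (x ^ n * (x * (y ^ n * y))) * c ^ n * c ^ n.choose 2 := by rw [hc n (x ^ n * (x * (y ^ n * y)))]
      _ = _ := by group

end ClassTwo

section Setup

variable (hcen : commutator G ≤ center G) (hcard : Nat.card (commutator G) = p)

/-- The identification of `G'` with `ℤ/p`. -/
noncomputable def eqv (hcard : Nat.card (commutator G) = p) :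
    commutator G ≃* Multiplicative (ZMod p) :=
  mulEquivOfPrimeCardEq hcard (by rw [Nat.card_eq_fintype_card]; simp)

/-- The exponential map `ℤ/p → G'`. -/
noncomputable def E (hcard : Nat.card (commutator G) = p) (a : ZMod p) : G :=
  (((eqv hcard).symm (ofAdd a) : commutator G) : G)

lemma E_mem (a : ZMod p) : E hcard a ∈ commutator G := SetLike.coe_mem _

lemma E_add (a b : ZMod p) : E hcard (a + b) = E hcard a * E hcard b := by
  simp [E, ofAdd_add]

lemma E_zero : E hcard (0 : ZMod p) = 1 := by
  simp [E]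

lemma E_eqv (u : commutator G) : E hcard (toAdd (eqv hcard u)) = u := by
  simp [E]

include hcen in
lemma E_central (a : ZMod p) (g : G) : g * E hcard a = E hcard a * g :=
  mem_center_iff.mp (hcen (E_mem hcard a)) g

lemma E_nsmul (a : ZMod p) (n : ℕ) : E hcard (n • a) = E hcard a ^ n := by
  induction n with
  | zero => simp [E_zero]
  | succ n ih => rw [succ_nsmul, E_add, ih, pow_succ]

/-- The commutator pairing as a homomorphism. -/
noncomputable def lamHom (x : G) : G →* Multiplicative (ZMod p) where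
  toFun g := eqv hcard ⟨⁅x, g⁆, Subgroup.commutator_mem_commutator (mem_top x) (mem_top g)⟩
  map_one' := by
    have : (⟨⁅x, (1 : G)⁆, Subgroup.commutator_mem_commutator (mem_top x) (mem_top 1)⟩ :
      commutator G) = 1 := Subtype.ext (by simp [commutatorElement_def])
    rw [this, map_one]
  map_mul' g g' := by
    rw [← map_mul]
    congr 1
    exact Subtype.ext (comm_mul_right' hcen x g g')

lemma comm_eq_E (x g : G) : ⁅x, g⁆ = E hcard (toAdd (lamHom hcen hcard x g)) := by
  have := E_eqv hcard (⟨⁅x, g⁆, Subgroup.commutator_mem_commutator (mem_top x) (mem_top g)⟩ :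
    commutator G)
  exact this.symm

lemma lamHom_eq_one_iff (x g : G) : lamHom hcen hcard x g = 1 ↔ ⁅x, g⁆ = 1 := by
  constructor
  · intro h
    rw [comm_eq_E hcen hcard, h]
    exact E_zero hcard
  · intro h
    show eqv hcard _ = 1
    have : (⟨⁅x, g⁆, Subgroup.commutator_mem_commutator (mem_top x) (mem_top g)⟩ :
      commutator G) = 1 := Subtype.ext h
    rw [this, map_one]

lemma pow_eq_of_cast_eq {y : G} (hy : y ^ p = 1) {m n : ℕ} (h : (m : ZMod p) = n) : y ^ m = y ^ n := by
  have h1 : m % p = n % p := (ZMod.natCast_eq_natCast_iff' m n p).mp h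
  rw [pow_eq_pow_mod m hy, pow_eq_pow_mod n hy, h1]

lemma pow_val_notMem {y : G} (hy : y ^ p = 1) (hy' : y ∉ commutator G) {a : ZMod p} (ha : a ≠ 0) :
    y ^ a.val ∉ commutator G := by
  intro h
  apply hy'
  have h1 : (y ^ a.val) ^ (a⁻¹).val ∈ commutator G := pow_mem h _
  rw [← pow_mul] at h1
  have h2 : ((a.val * (a⁻¹).val : ℕ) : ZMod p) = ((1 : ℕ) : ZMod p) := by
    rw [Nat.cast_mul, ZMod.natCast_zmod_val, ZMod.natCast_zmod_val, mul_inv_cancel₀ ha, Nat.cast_one]
  rw [pow_eq_of_cast_eq hy h2, pow_one] at h1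
  exact h1

include hcen hcard in
/-- Automorphism from a central element of order `p` outside `G'`. -/
theorem auto_of_central {y x₀ : G} (hyc : y ∈ center G) (hy : y ^ p = 1) (hy' : y ∉ commutator G)
    (hx₀ : x₀ ∉ center G) :
    ∃ (α : MulAut G) (M : Subgroup G), M.index = p ∧ center G ≤ M ∧
      ∀ x, x ∉ M → (α x) * x⁻¹ ∉ commutator G := by
  have hyn : ∀ (n : ℕ), y ^ n ∈ center G := fun n => pow_mem hyc n
  refine exists_auto_data (lamHom hcen hcard x₀) (fun a => y ^ a.val) (fun _ _ => 1) ?_ ?_ ?_ ?_ ?_ ?_ ?_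
  · intro a g
    simp only [mul_one]
    exact (mem_center_iff.mp (hyn _) g).symm
  · intro a b
    simp only [mul_one]
    rw [← pow_add]
    apply pow_eq_of_cast_eq hy
    simp
  · intro a
    rw [lamHom_eq_one_iff, commutatorElement_eq_one_iff_mul_comm]
    exact mem_center_iff.mp (hyn _) x₀
  · simp
  · by_contra hne
    push Not at hne
    apply hx₀
    rw [mem_center_iff]
    intro g
    have := (lamHom_eq_one_iff hcen hcard x₀ g).mp (hne g)
    exact (commutatorElement_eq_one_iff_mul_comm.mp this).symm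
  · intro z hz
    rw [lamHom_eq_one_iff, commutatorElement_eq_one_iff_mul_comm]
    exact mem_center_iff.mp hz x₀
  · intro a ha
    exact pow_val_notMem hy hy' ha

include hcen in
/-- Automorphism from a non-central element. -/
theorem auto_of_noncentral {y : G} (q : ZMod p → ZMod p) (hq0 : q 0 = 0)
    (hq : ∀ a b : ZMod p, y ^ (a.val + b.val) * E hcard (q a + a * b + q b) =
      y ^ (a + b).val * E hcard (q (a + b)))
    (hyc : y ∉ center G) (hy' : ∀ a : ZMod p, a ≠ 0 → y ^ a.val ∉ commutator G) :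
    ∃ (α : MulAut G) (M : Subgroup G), M.index = p ∧ center G ≤ M ∧
      ∀ x, x ∉ M → (α x) * x⁻¹ ∉ commutator G := by
  have hEc := E_central (p := p) hcen hcard
  have hcomm : ∀ (n : ℕ) (g : G), y ^ n * g = ⁅y, g⁆ ^ n * g * y ^ n := by
    intro n g
    rw [← comm_pow_left' hcen y g n, commutatorElement_def]
    group
  refine exists_auto_data (lamHom hcen hcard y) (fun a => y ^ a.val * E hcard (q a))
    (fun a b => E hcard (a * b)) ?_ ?_ ?_ ?_ ?_ ?_ ?_
  · intro a g
    show y ^ a.val * E hcard (q a) * g =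
      g * (y ^ a.val * E hcard (q a)) * E hcard (a * toAdd (lamHom hcen hcard y g))
    have h1 : ⁅y, g⁆ ^ a.val = E hcard (a * toAdd (lamHom hcen hcard y g)) := by
      rw [comm_eq_E hcen hcard y g, ← E_nsmul]
      congr 1
      simp
    calc y ^ a.val * E hcard (q a) * g = y ^ a.val * (E hcard (q a) * g) := mul_assoc _ _ _
      _ = y ^ a.val * (g * E hcard (q a)) := by rw [← hEc (q a) g]
      _ = (y ^ a.val * g) * E hcard (q a) := (mul_assoc _ _ _).symm
      _ = (E hcard (a * toAdd (lamHom hcen hcard y g)) * g * y ^ a.val) * E hcard (q a) := by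
          rw [hcomm, h1]
      _ = E hcard (a * toAdd (lamHom hcen hcard y g)) * (g * y ^ a.val * E hcard (q a)) := by group
      _ = (g * y ^ a.val * E hcard (q a)) * E hcard (a * toAdd (lamHom hcen hcard y g)) :=
          (hEc _ _).symm
      _ = _ := by rw [mul_assoc g]
  · intro a b
    show y ^ a.val * E hcard (q a) * E hcard (a * b) * (y ^ b.val * E hcard (q b)) =
      y ^ (a + b).val * E hcard (q (a + b))
    rw [← hq a b, pow_add, E_add, E_add]
    have hc2 : ∀ u : G, (E hcard (q a) * E hcard (a * b)) * u = u * (E hcard (q a) * E hcard (a * b)) := by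
      intro u
      rw [← E_add]
      exact (hEc _ u).symm
    calc y ^ a.val * E hcard (q a) * E hcard (a * b) * (y ^ b.val * E hcard (q b))
        = y ^ a.val * ((E hcard (q a) * E hcard (a * b)) * y ^ b.val) * E hcard (q b) := by group
      _ = y ^ a.val * (y ^ b.val * (E hcard (q a) * E hcard (a * b))) * E hcard (q b) := by
          rw [hc2]
      _ = _ := by group
  · intro a
    rw [lamHom_eq_one_iff, commutatorElement_eq_one_iff_mul_comm]
    show y * (y ^ a.val * E hcard (q a)) = y ^ a.val * E hcard (q a) * y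
    calc y * (y ^ a.val * E hcard (q a)) = (y * y ^ a.val) * E hcard (q a) := (mul_assoc _ _ _).symm
      _ = (y ^ a.val * y) * E hcard (q a) := by rw [← pow_succ, ← pow_succ']
      _ = y ^ a.val * (y * E hcard (q a)) := mul_assoc _ _ _
      _ = y ^ a.val * (E hcard (q a) * y) := by rw [hEc]
      _ = _ := (mul_assoc _ _ _).symm
  · simp [hq0, E_zero]
  · by_contra hne
    push Not at hne
    apply hyc
    rw [mem_center_iff]
    intro g
    have := (lamHom_eq_one_iff hcen hcard y g).mp (hne g)
    exact (commutatorElement_eq_one_iff_mul_comm.mp this).symm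
  · intro z hz
    rw [lamHom_eq_one_iff, commutatorElement_eq_one_iff_mul_comm]
    exact mem_center_iff.mp hz y
  · intro a ha hmem
    apply hy' a ha
    have h1 := mul_mem hmem (inv_mem (E_mem hcard (q a)))
    simpa using h1

include hcen hcard in
/-- Odd primes: `x ↦ x ^ p` is a homomorphism whose kernel is larger than `G'`. -/
theorem exists_auto_odd (hp2 : p ≠ 2) (hidx : p ^ 2 ≤ (center G).index) :
    ∃ (α : MulAut G) (M : Subgroup G), M.index = p ∧ center G ≤ M ∧
      ∀ x, x ∉ M → (α x) * x⁻¹ ∉ commutator G := by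
  classical
  have hpp := hp.out
  have hp3 : 2 < p := by
    have := hpp.two_le
    omega
  have hcp : ∀ u ∈ commutator G, u ^ p = 1 := by
    intro u hu
    have h1 := pow_card_eq_one' (x := (⟨u, hu⟩ : commutator G))
    rw [hcard] at h1
    exact congrArg Subtype.val h1
  have hdvd : p ∣ p.choose 2 := hpp.dvd_choose_self (by norm_num) hp3
  let f : G →* G :=
    { toFun := fun x => x ^ p
      map_one' := one_pow p
      map_mul' := by
        intro x y
        show (x * y) ^ p = x ^ p * y ^ p
        rw [mul_pow_class_two hcen]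
        obtain ⟨t, ht⟩ := hdvd
        have h1 : ⁅y, x⁆ ^ p = 1 :=
          hcp _ (Subgroup.commutator_mem_commutator (mem_top y) (mem_top x))
        rw [ht, pow_mul, h1, one_pow, mul_one] }
  have hrange : f.range ≤ center G := by
    rintro _ ⟨x, rfl⟩
    rw [mem_center_iff]
    intro g
    show g * x ^ p = x ^ p * g
    have h1 : ⁅x ^ p, g⁆ = 1 := by
      rw [comm_pow_left' hcen]
      exact hcp _ (Subgroup.commutator_mem_commutator (mem_top x) (mem_top g))
    exact (commutatorElement_eq_one_iff_mul_comm.mp h1).symm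
  have hker : ¬ f.ker ≤ commutator G := by
    intro hle
    have h1 : Nat.card f.ker ≤ p := hcard ▸ Subgroup.card_le_of_le hle
    have h2 : Nat.card f.ker * Nat.card f.range = Nat.card G := by
      rw [← Subgroup.index_ker]; exact Subgroup.card_mul_index _
    have h3 : Nat.card f.range ≤ Nat.card (center G) := Subgroup.card_le_of_le hrange
    have h4 : Nat.card (center G) * (center G).index = Nat.card G := Subgroup.card_mul_index _
    have h5 : 0 < Nat.card (center G) := Nat.card_pos
    have h6 : (center G).index ≤ Nat.card f.ker := by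
      apply Nat.le_of_mul_le_mul_left _ h5
      calc Nat.card (center G) * (center G).index = Nat.card f.ker * Nat.card f.range := by
            rw [h4, h2]
        _ ≤ Nat.card f.ker * Nat.card (center G) := Nat.mul_le_mul_left _ h3
        _ = _ := Nat.mul_comm _ _
    have h7 : p * p ≤ p := by
      calc p * p = p ^ 2 := (pow_two p).symm
        _ ≤ _ := hidx.trans (h6.trans h1)
    nlinarith [hpp.two_le]
  obtain ⟨y, hy, hy'⟩ := SetLike.not_le_iff_exists.mp hker
  have hyp : y ^ p = 1 := hy
  by_cases hyc : y ∈ center G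
  · have hx₀ : ∃ x₀, x₀ ∉ center G := by
      by_contra hall
      push Not at hall
      have h1 : center G = ⊤ := eq_top_iff.mpr fun x _ => hall x
      rw [h1, Subgroup.index_top] at hidx
      have : 2 ^ 2 ≤ p ^ 2 := Nat.pow_le_pow_left hpp.two_le 2
      omega
    obtain ⟨x₀, hx₀⟩ := hx₀
    exact auto_of_central hcen hcard hyc hyp hy' hx₀
  · have h2ne : (2 : ZMod p) ≠ 0 := by
      intro h
      have h1 : ((2 : ℕ) : ZMod p) = 0 := by exact_mod_cast h
      rw [ZMod.natCast_eq_zero_iff] at h1
      have := Nat.le_of_dvd (by norm_num) h1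
      omega
    refine auto_of_noncentral hcen hcard (fun a => a * (a - 1) * 2⁻¹) (by simp) ?_ hyc
      (fun a ha => pow_val_notMem hyp hy' ha)
    intro a b
    have h1 : y ^ (a.val + b.val) = y ^ (a + b).val := by
      apply pow_eq_of_cast_eq hyp
      simp
    have h2 : a * (a - 1) * 2⁻¹ + a * b + b * (b - 1) * 2⁻¹ = (a + b) * (a + b - 1) * 2⁻¹ := by
      field_simp
      ring
    rw [h1, h2]

include hcen hcard in
/-- The prime two. -/
theorem exists_auto_two (hp2 : p = 2) (hidx : p ^ 2 ≤ (center G).index) :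
    ∃ (α : MulAut G) (M : Subgroup G), M.index = p ∧ center G ≤ M ∧
      ∀ x, x ∉ M → (α x) * x⁻¹ ∉ commutator G := by
  classical
  subst hp2
  have hx₀ : ∃ x₀, x₀ ∉ center G := by
    by_contra hall
    push Not at hall
    have h1 : center G = ⊤ := eq_top_iff.mpr fun x _ => hall x
    rw [h1, Subgroup.index_top] at hidx
    omega
  obtain ⟨x₀, hx₀⟩ := hx₀
  by_cases hA : ∃ y ∈ center G, y ^ 2 = 1 ∧ y ∉ commutator G
  · obtain ⟨y, hyc, hy, hy'⟩ := hA
    exact auto_of_central hcen hcard hyc hy hy' hx₀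
  push Not at hA
  set w : G := E hcard (1 : ZMod 2) with hw
  have hwmem : w ∈ commutator G := E_mem hcard _
  have hwc : w ∈ center G := hcen hwmem
  have hw2 : w ^ 2 = 1 := by
    rw [hw, ← E_nsmul]
    have : (2 • (1 : ZMod 2)) = 0 := by rw [two_nsmul]; exact CharTwo.add_self_eq_zero _
    rw [this, E_zero]
  have hcom : ∀ u ∈ commutator G, u = 1 ∨ u = w := by
    intro u hu
    have h1 := E_eqv hcard (⟨u, hu⟩ : commutator G)
    have hval := zmod2_cases
    generalize toAdd (eqv hcard (⟨u, hu⟩ : commutator G)) = a at h1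
    rcases hval a with rfl | rfl
    · left
      rw [E_zero] at h1
      exact h1.symm
    · right
      exact h1.symm
  have hwne : w ≠ 1 := by
    intro h1
    have h2 : ∀ u ∈ commutator G, u = 1 := fun u hu => by
      rcases hcom u hu with h3 | h3
      · exact h3
      · rw [h3, h1]
    have h3 : commutator G = ⊥ := (Subgroup.eq_bot_iff_forall _).mpr h2
    rw [h3] at hcard
    simp at hcard
  have hcc : ∀ x g : G, ⁅x, g⁆ ∈ commutator G := fun x g =>
    Subgroup.commutator_mem_commutator (mem_top x) (mem_top g)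
  have hsqc : ∀ x : G, x ^ 2 ∈ center G := by
    intro x
    rw [mem_center_iff]
    intro g
    have h1 : ⁅x ^ 2, g⁆ = 1 := by
      rw [comm_pow_left' hcen]
      rcases hcom _ (hcc x g) with h | h <;> rw [h]
      · exact one_pow 2
      · exact hw2
    exact (commutatorElement_eq_one_iff_mul_comm.mp h1).symm
  have hmul2 : ∀ x y : G, (x * y) ^ 2 = x ^ 2 * y ^ 2 * ⁅y, x⁆ := by
    intro x y
    have := mul_pow_class_two hcen x y 2
    simpa using this
  let sq : center G →* center G :=
    { toFun := fun z => z ^ 2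
      map_one' := one_pow 2
      map_mul' := fun a b => by
        have h1 : Commute a b := Subtype.ext (mem_center_iff.mp a.2 (b : G)).symm
        exact h1.mul_pow 2 }
  have hSidx : sq.range.index = 2 := by
    have h1 : Nat.card sq.ker * Nat.card sq.range = Nat.card (center G) := by
      rw [← Subgroup.index_ker]; exact Subgroup.card_mul_index _
    have h2 : Nat.card sq.range * sq.range.index = Nat.card (center G) := Subgroup.card_mul_index _
    have hwker : (⟨w, hwc⟩ : center G) ∈ sq.ker := by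
      rw [MonoidHom.mem_ker]
      exact Subtype.ext hw2
    have h3 : Nat.card sq.ker = 2 := by
      rw [Nat.card_eq_two_iff]
      refine ⟨1, ⟨⟨w, hwc⟩, hwker⟩, ?_, ?_⟩
      · intro h
        apply hwne
        have := congrArg (fun t : sq.ker => (((t : center G) : G))) h
        exact this.symm
      · ext ⟨⟨z, hz⟩, hzk⟩
        simp only [Set.mem_insert_iff, Set.mem_singleton_iff, Set.mem_univ, iff_true]
        have hz2 : z ^ 2 = 1 := by
          have := (MonoidHom.mem_ker).mp hzk
          exact congrArg Subtype.val this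
        rcases hcom z (hA z hz hz2) with h | h
        · left
          exact Subtype.ext (Subtype.ext h)
        · right
          exact Subtype.ext (Subtype.ext h)
    have h4 : 0 < Nat.card sq.range := Nat.card_pos
    rw [h3] at h1
    have h5 : Nat.card sq.range * sq.range.index = Nat.card sq.range * 2 := by
      rw [h2, ← h1, mul_comm]
    exact Nat.eq_of_mul_eq_mul_left h4 h5
  have hmem2 := fun a b => Subgroup.mul_mem_iff_of_index_two (H := sq.range) hSidx (a := a) (b := b)
  -- central twist does not change commutators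
  have htw : ∀ (x g c : G), c ∈ center G → ⁅x * c, g⁆ = ⁅x, g⁆ := by
    intro x g c hc
    rw [comm_mul_left' hcen]
    have : ⁅c, g⁆ = 1 := commutatorElement_eq_one_iff_mul_comm.mpr (mem_center_iff.mp hc g).symm
    rw [this, mul_one]
  -- the key element
  have hkey : ∃ y, y ∉ center G ∧ y ^ 2 = w := by
    have hx₀' : ∃ b : G, ⁅x₀, b⁆ ≠ 1 := by
      by_contra hall
      push Not at hall
      apply hx₀
      rw [mem_center_iff]
      intro g
      exact (commutatorElement_eq_one_iff_mul_comm.mp (hall g)).symm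
    obtain ⟨b, hb⟩ := hx₀'
    have hab : ⁅x₀, b⁆ = w := by
      rcases hcom _ (hcc x₀ b) with h | h
      · exact absurd h hb
      · exact h
    have hba : ⁅b, x₀⁆ = w := by
      have h1 : ⁅b, x₀⁆ = ⁅x₀, b⁆⁻¹ := (commutatorElement_inv x₀ b).symm
      rw [h1, hab, inv_eq_iff_mul_eq_one, ← pow_two, hw2]
    have hbnc : b ∉ center G := by
      intro h
      apply hb
      exact commutatorElement_eq_one_iff_mul_comm.mpr (mem_center_iff.mp h x₀)
    have hcentmul : ∀ (x c : G), c ∈ center G → x * c ∈ center G → x ∈ center G := by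
      intro x c hc hxc
      have : x = x * c * c⁻¹ := by group
      rw [this]
      exact mul_mem hxc (inv_mem hc)
    have hsqtw : ∀ (x c : G), c ∈ center G → (x * c) ^ 2 = x ^ 2 * c ^ 2 := by
      intro x c hc
      have h0 : Commute x c := mem_center_iff.mp hc x
      exact h0.mul_pow 2
    by_cases hwS : (⟨w, hwc⟩ : center G) ∈ sq.range
    · -- `w` is a square in the centre
      obtain ⟨v, hv⟩ := hwS
      have hv2 : (v : G) ^ 2 = w := congrArg Subtype.val hv
      have hex : ∃ x, x ∉ center G ∧ (⟨x ^ 2, hsqc x⟩ : center G) ∈ sq.range := by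
        by_cases h1 : (⟨x₀ ^ 2, hsqc x₀⟩ : center G) ∈ sq.range
        · exact ⟨x₀, hx₀, h1⟩
        by_cases h2 : (⟨b ^ 2, hsqc b⟩ : center G) ∈ sq.range
        · exact ⟨b, hbnc, h2⟩
        refine ⟨x₀ * b, ?_, ?_⟩
        · intro h
          have h3 : ⁅b, x₀⁆ = 1 := by
            have h4 : ⁅x₀ * b, x₀⁆ = ⁅x₀, x₀⁆ * ⁅b, x₀⁆ := comm_mul_left' hcen _ _ _
            rw [commutatorElement_self, one_mul] at h4
            rw [← h4]
            exact commutatorElement_eq_one_iff_mul_comm.mpr (mem_center_iff.mp h x₀).symm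
          rw [h3] at hba
          exact hwne hba.symm
        · have h3 : (⟨x₀ ^ 2, hsqc x₀⟩ : center G) * ⟨b ^ 2, hsqc b⟩ ∈ sq.range :=
            (hmem2 _ _).mpr (by simp [h1, h2])
          have h4 : (⟨(x₀ * b) ^ 2, hsqc _⟩ : center G) =
              (⟨x₀ ^ 2, hsqc x₀⟩ : center G) * ⟨b ^ 2, hsqc b⟩ * ⟨w, hwc⟩ := by
            apply Subtype.ext
            show (x₀ * b) ^ 2 = x₀ ^ 2 * b ^ 2 * w
            rw [hmul2, hba]
          rw [h4]
          exact mul_mem h3 ⟨v, hv⟩
      obtain ⟨x, hx, ⟨u, hu⟩⟩ := hex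
      have hu2 : (u : G) ^ 2 = x ^ 2 := congrArg Subtype.val hu
      let c : G := (u : G)⁻¹ * v
      have hcc' : c ∈ center G := mul_mem (inv_mem u.2) v.2
      refine ⟨x * c, fun h => hx (hcentmul x c hcc' h), ?_⟩
      rw [hsqtw x c hcc']
      have h0 : Commute ((u : G)⁻¹) (v : G) := mem_center_iff.mp v.2 _
      have h5 : c ^ 2 = ((u : G)⁻¹) ^ 2 * (v : G) ^ 2 := h0.mul_pow 2
      rw [h5, hv2, ← hu2, ← mul_assoc, inv_pow, mul_inv_cancel, one_mul]
    · -- `w` is not a square in the centre
      have hred : ∀ x, x ∉ center G → ∃ c ∈ center G, (x * c) ^ 2 = 1 ∨ (x * c) ^ 2 = w := by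
        intro x _
        by_cases h1 : (⟨x ^ 2, hsqc x⟩ : center G) ∈ sq.range
        · obtain ⟨u, hu⟩ := h1
          have hu2 : (u : G) ^ 2 = x ^ 2 := congrArg Subtype.val hu
          refine ⟨(u : G)⁻¹, inv_mem u.2, Or.inl ?_⟩
          rw [hsqtw x _ (inv_mem u.2), inv_pow, hu2, mul_inv_cancel]
        · have h3 : (⟨x ^ 2, hsqc x⟩ : center G) * ⟨w, hwc⟩ ∈ sq.range :=
            (hmem2 _ _).mpr (by simp [h1, hwS])
          obtain ⟨u, hu⟩ := h3
          have hu2 : (u : G) ^ 2 = x ^ 2 * w := congrArg Subtype.val hu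
          refine ⟨(u : G)⁻¹, inv_mem u.2, Or.inr ?_⟩
          have h0 : w⁻¹ = w := by rw [inv_eq_iff_mul_eq_one, ← pow_two, hw2]
          have h6 : x ^ 2 * w = w * x ^ 2 := (mem_center_iff.mp hwc (x ^ 2))
          rw [hsqtw x _ (inv_mem u.2), inv_pow, hu2, h6, mul_inv_rev, mul_inv_cancel_left, h0]
      obtain ⟨c, hc, hac⟩ := hred x₀ hx₀
      obtain ⟨d, hd, hbd⟩ := hred b hbnc
      have hnc1 : x₀ * c ∉ center G := fun h => hx₀ (hcentmul _ _ hc h)
      have hnc2 : b * d ∉ center G := fun h => hbnc (hcentmul _ _ hd h)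
      rcases hac with hac | hac
      · rcases hbd with hbd | hbd
        · have hc3 : ⁅b * d, x₀ * c⁆ = w := by
            have h1 : ⁅b * d, x₀ * c⁆ = ⁅b, x₀ * c⁆ := htw _ _ _ hd
            have h2 : ⁅b, x₀ * c⁆ = ⁅b, x₀⁆ * ⁅b, c⁆ := comm_mul_right' hcen _ _ _
            have h3 : ⁅b, c⁆ = 1 := commutatorElement_eq_one_iff_mul_comm.mpr (mem_center_iff.mp hc b)
            rw [h1, h2, h3, mul_one, hba]
          refine ⟨(x₀ * c) * (b * d), ?_, ?_⟩
          · intro h
            have h4 : ⁅(x₀ * c) * (b * d), x₀ * c⁆ = ⁅x₀ * c, x₀ * c⁆ * ⁅b * d, x₀ * c⁆ :=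
              comm_mul_left' hcen _ _ _
            rw [commutatorElement_self, one_mul, hc3] at h4
            apply hwne
            rw [← h4]
            exact commutatorElement_eq_one_iff_mul_comm.mpr (mem_center_iff.mp h _).symm
          · rw [hmul2, hac, hbd, hc3, mul_one, one_mul]
        · exact ⟨b * d, hnc2, hbd⟩
      · exact ⟨x₀ * c, hnc1, hac⟩
  obtain ⟨y, hyc, hy2⟩ := hkey
  refine auto_of_noncentral hcen hcard (fun _ => 0) rfl ?_ hyc ?_
  · intro a b
    simp only [add_zero, zero_add]
    have hval := zmod2_cases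
    have hv1 : (1 : ZMod 2).val = 1 := rfl
    have hv0 : (0 : ZMod 2).val = 0 := rfl
    have h11 : (1 : ZMod 2) + 1 = 0 := CharTwo.add_self_eq_zero _
    rcases hval a with rfl | rfl <;> rcases hval b with rfl | rfl
    · simp
    · simp
    · simp
    · rw [h11, hv1, hv0, mul_one, E_zero, mul_one, pow_zero, ← hw, pow_add, pow_one, ← pow_two, hy2, ← pow_two, hw2]
  · intro a ha
    have hval := zmod2_cases
    rcases hval a with rfl | rfl
    · exact absurd rfl ha
    · have hv1 : (1 : ZMod 2).val = 1 := rfl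
      rw [hv1, pow_one]
      exact fun h => hyc (hcen h)

include hcen hcard in
theorem exists_auto (hidx : p ^ 2 ≤ (center G).index) :
    ∃ (α : MulAut G) (M : Subgroup G), M.index = p ∧ center G ≤ M ∧
      ∀ x, x ∉ M → (α x) * x⁻¹ ∉ commutator G := by
  by_cases hp2 : p = 2
  · exact exists_auto_two hcen hcard hp2 hidx
  · exact exists_auto_odd hcen hcard hp2 hidx

end Setup

end Cfsg.Agent.Lib.AutOrb
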