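import Cfsg.Agent.Lib.Char.Degree
import Cfsg.Agent.Lib.Char.Linear

/-!
# Many conjugacy classes force `|G'| = p`, `p` the least prime divisor of `|G|`
-/

set_option autoImplicit false

namespace Cfsg.Agent.Lib.AutOrb

open Cfsg.Agent.Lib.Char Cfsg
open scoped commutatorElement

universe u

variable {G : Type u} [Group G] [Finite G]

private lemma many_arith (p ℓ e n : ℕ) (hp : 2 ≤ p) (h1 : ℓ + e * p ^ 2 ≤ n)
    (h2 : n < p * (ℓ + e)) (h3 : (p + 1) * ℓ ≤ n) : False := by
  obtain ⟨q, rfl⟩ : ∃ q, p = q + 2 := ⟨p - 2, by omega⟩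
  have a : ℓ < (q + 2) * e := by nlinarith
  have b : (q + 1) * ((q + 2) * e) < (q + 1) * ℓ := by nlinarith
  have c : (q + 2) * e < ℓ := Nat.lt_of_mul_lt_mul_left b
  omega

/-- If `k(G) > |G|/p` for a non-abelian group, `p` the least prime divisor, then `|G'| = p`. -/
theorem card_commutator_of_many_classes (hna : ¬ ∀ a b : G, a * b = b * a)
    (hk : Nat.card G < (Nat.card G).minFac * Nat.card (ConjClasses G)) :
    Nat.card (commutator G) = (Nat.card G).minFac := by
  classical
  let _ := Fintype.ofFinite G
  set n := Nat.card G with hn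
  set p := n.minFac with hp
  have hbot : commutator G ≠ ⊥ := by
    intro h
    apply hna
    intro a b
    have h1 : ⁅a, b⁆ ∈ commutator G := Subgroup.commutator_mem_commutator (Subgroup.mem_top a) (Subgroup.mem_top b)
    rw [h, Subgroup.mem_bot] at h1
    exact commutatorElement_eq_one_iff_mul_comm.mp h1
  have hn1 : n ≠ 1 := by
    intro h1
    have : Subsingleton G := (Nat.card_eq_one_iff_unique.mp h1).1
    exact hna fun a b => Subsingleton.elim _ _
  have hpp : p.Prime := Nat.minFac_prime hn1
  have hp2 := hpp.two_le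
  -- sum of squares of degrees
  have hsum : ∑ χ : IrrCharacter G, charDegree (χ : G → ℂ) ^ 2 = n := by
    have h1 := sum_irr_degree_sq (G := G)
    have h2 : ∀ χ : IrrCharacter G, (χ : G → ℂ) 1 ^ 2 = ((charDegree (χ : G → ℂ) ^ 2 : ℕ) : ℂ) := by
      intro χ
      rw [apply_one_eq_charDegree (IsIrrCharacter.isCharacter χ.2)]
      push_cast
      rfl
    rw [Finset.sum_congr rfl (fun χ _ => h2 χ)] at h1
    exact_mod_cast h1
  have hkc : Fintype.card (IrrCharacter G) = Nat.card (ConjClasses G) := by
    rw [← Nat.card_eq_fintype_card, card_irr_eq_card_conjClasses]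
  -- lower bound
  let L : Finset (IrrCharacter G) := Finset.univ.filter (fun χ => charDegree (χ : G → ℂ) = 1)
  have hL : L.card = (commutator G).index := by
    rw [← card_linear_eq_index_commutator, Nat.card_eq_fintype_card, Fintype.card_subtype]
    congr 1
    ext χ
    simp only [L, Finset.mem_filter, Finset.mem_univ, true_and]
    constructor
    · intro h
      rw [apply_one_eq_charDegree (IsIrrCharacter.isCharacter χ.2), h]; simp
    · intro h
      exact charDegree_eq (n := 1) (by rw [h]; simp)
  have hlow : ∀ χ : IrrCharacter G, χ ∉ L → p ^ 2 ≤ charDegree (χ : G → ℂ) ^ 2 := by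
    intro χ hχ
    have h1 : charDegree (χ : G → ℂ) ≠ 1 := by
      intro h; exact hχ (by simp [L, h])
    have h2 := charDegree_pos χ.2
    have h3 : 2 ≤ charDegree (χ : G → ℂ) := by omega
    have h4 := Nat.minFac_le_of_dvd h3 (charDegree_dvd_card χ.2)
    exact Nat.pow_le_pow_left h4 2
  have hsum2 : L.card + (Nat.card (ConjClasses G) - L.card) * p ^ 2 ≤ n := by
    rw [← hsum, ← hkc, ← Finset.sum_add_sum_compl L]
    apply add_le_add
    · calc L.card = ∑ χ ∈ L, 1 := by simp
        _ ≤ _ := Finset.sum_le_sum fun χ hχ => by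
            have := charDegree_pos χ.2
            exact Nat.one_le_pow _ _ this
    · have : Fintype.card (IrrCharacter G) - L.card = Lᶜ.card := by
        rw [Finset.card_compl]
      rw [this]
      calc Lᶜ.card * p ^ 2 = ∑ χ ∈ Lᶜ, p ^ 2 := by simp
        _ ≤ _ := Finset.sum_le_sum fun χ hχ => hlow χ (Finset.mem_compl.mp hχ)
  have hLk : L.card ≤ Nat.card (ConjClasses G) := by
    rw [← hkc]; exact Finset.card_le_univ _
  have hindex : Nat.card (commutator G) * L.card = n := by
    rw [hL]; exact Subgroup.card_mul_index _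
  set h := Nat.card (commutator G) with hh
  set ℓ := L.card with hℓ
  set k := Nat.card (ConjClasses G) with hk'
  have hle : h ≤ p := by
    by_contra hlt
    push Not at hlt
    obtain ⟨e, he⟩ : ∃ e, k = ℓ + e := ⟨k - ℓ, by omega⟩
    have h3 : k - ℓ = e := by omega
    rw [h3] at hsum2
    have hpk : n < p * (ℓ + e) := by rw [he] at hk; exact hk
    have h5 : (p + 1) * ℓ ≤ n := by
      rw [← hindex]
      exact Nat.mul_le_mul_right _ hlt
    exact many_arith p ℓ e n hp2 hsum2 hpk h5
  have hge : p ≤ h := by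
    apply Nat.minFac_le_of_dvd
    · have h1 : h ≠ 1 := by
        intro h1
        exact hbot (Subgroup.card_eq_one.mp h1)
      have h2 : 0 < h := Nat.card_pos
      omega
    · exact Subgroup.card_subgroup_dvd_card _
  omega

/-- A normal subgroup of order the least prime divisor of `|G|` is central. -/
theorem le_center_of_card_minFac (N : Subgroup G) [N.Normal]
    (hN : Nat.card N = (Nat.card G).minFac) (hn1 : Nat.card G ≠ 1) :
    N ≤ Subgroup.center G := by
  classical
  set p := (Nat.card G).minFac with hp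
  have hpp : p.Prime := Nat.minFac_prime hn1
  haveI : Fact p.Prime := ⟨hpp⟩
  haveI hcyc : IsCyclic N := isCyclic_of_prime_card hN
  have hAut : Nat.card (MulAut N) = p - 1 := by
    rw [hcyc.card_mulAut, hN, Nat.totient_prime hpp]
  have hcop : Nat.Coprime (Nat.card G) (p - 1) := by
    apply Nat.coprime_of_dvd
    intro q hq h1 h2
    have h3 : p ≤ q := Nat.minFac_le_of_dvd hq.two_le h1
    have h4 : q ≤ p - 1 := Nat.le_of_dvd (by have := hpp.two_le; omega) h2
    have := hpp.two_le
    omega
  intro x hx
  rw [Subgroup.mem_center_iff]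
  intro g
  have h1 : orderOf (MulAut.conjNormal g : MulAut N) ∣ Nat.card G :=
    orderOf_map_dvd _ g |>.trans (orderOf_dvd_natCard g)
  have h2 : orderOf (MulAut.conjNormal g : MulAut N) ∣ p - 1 := by
    rw [← hAut]; exact orderOf_dvd_natCard _
  have h3 : orderOf (MulAut.conjNormal g : MulAut N) = 1 := Nat.eq_one_of_dvd_coprimes hcop h1 h2
  rw [orderOf_eq_one_iff] at h3
  have h4 := congrArg (fun f : MulAut N => ((f ⟨x, hx⟩ : N) : G)) h3
  simp only [MulAut.conjNormal_apply, MulAut.one_apply] at h4
  rw [mul_inv_eq_iff_eq_mul] at h4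
  exact h4

end Cfsg.Agent.Lib.AutOrb
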