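import Cfsg.Agent.Lib.AutOrb.Classes
import Cfsg.Agent.Lib.AutOrb.Auto

/-!
# Counting `Aut(G)`-orbits
-/

set_option autoImplicit false

namespace Cfsg.Agent.Lib.AutOrb

open Subgroup
open scoped commutatorElement

universe u

variable {G : Type u} [Group G] [Finite G]

/-- The orbit map of `Aut(G)`. -/
def orbMk (x : G) : MulAction.orbitRel.Quotient (MulAut G) G := Quotient.mk'' x

lemma orbMk_eq {x y : G} (β : MulAut G) (h : β x = y) : orbMk y = orbMk x := by
  apply Quotient.sound'
  exact ⟨β, h⟩

lemma orbMk_surj : Function.Surjective (orbMk : G → _) := Quotient.mk''_surjective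

/-- The number of orbits is the sum of the reciprocal orbit sizes. -/
theorem card_orbits_eq_sum [Fintype G] [DecidableEq (MulAction.orbitRel.Quotient (MulAut G) G)]
    [Fintype (MulAction.orbitRel.Quotient (MulAut G) G)] :
    (Fintype.card (MulAction.orbitRel.Quotient (MulAut G) G) : ℚ) =
      ∑ x : G, 1 / ((Finset.univ.filter (fun y : G => orbMk y = orbMk x)).card : ℚ) := by
  classical
  rw [← Finset.sum_fiberwise (s := Finset.univ) (g := orbMk)]
  rw [Fintype.card_eq_sum_ones]
  push_cast
  refine Finset.sum_congr rfl fun ω _ => ?_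
  obtain ⟨x₀, rfl⟩ := orbMk_surj ω
  have h1 : ∀ x ∈ Finset.univ.filter (fun y : G => orbMk y = orbMk x₀),
      (1 : ℚ) / ((Finset.univ.filter (fun y : G => orbMk y = orbMk x)).card : ℚ) =
      1 / ((Finset.univ.filter (fun y : G => orbMk y = orbMk x₀)).card : ℚ) := by
    intro x hx
    have h2 : orbMk x = orbMk x₀ := (Finset.mem_filter.mp hx).2
    rw [h2]
  rw [Finset.sum_congr rfl h1, Finset.sum_const, nsmul_eq_mul]
  have h3 : ((Finset.univ.filter (fun y : G => orbMk y = orbMk x₀)).card : ℚ) ≠ 0 := by
    have : x₀ ∈ Finset.univ.filter (fun y : G => orbMk y = orbMk x₀) := by simp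
    exact_mod_cast (Finset.card_pos.mpr ⟨x₀, this⟩).ne'
  field_simp

/-- A class of a non-central element has at least `p` elements. -/
lemma le_card_class [Fintype G] [DecidableEq G] (p : ℕ) (hmin : ∀ H : Subgroup G, H ≠ ⊤ → p ≤ H.index)
    {x : G} (hx : x ∉ center G) :
    p ≤ (Finset.univ.filter (fun y : G => IsConj x y)).card := by
  classical
  have hC : centralizer ({x} : Set G) ≠ ⊤ := by
    intro h
    apply hx
    rw [mem_center_iff]
    intro g
    have h1 : g ∈ centralizer ({x} : Set G) := by rw [h]; exact mem_top g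
    rw [mem_centralizer_singleton_iff] at h1
    exact h1
  have h1 := hmin _ hC
  have h2 := Cfsg.Agent.Lib.Char.card_conj_mul_card_centralizer x
  have h3 := Subgroup.index_mul_card (centralizer ({x} : Set G))
  have h4 : 0 < Nat.card (centralizer ({x} : Set G)) := Nat.card_pos
  have h5 : Nat.card {y : G // IsConj x y} = (centralizer ({x} : Set G)).index :=
    Nat.eq_of_mul_eq_mul_right h4 (h2.trans h3.symm)
  rw [Nat.card_eq_fintype_card, Fintype.card_subtype] at h5
  rw [h5]
  exact h1

/-- The counting argument. -/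
theorem orbit_count (p : ℕ) (hpp : p.Prime) (hmin : ∀ H : Subgroup G, H ≠ ⊤ → p ≤ H.index)
    (hidx : p ^ 2 ≤ (center G).index) (α : MulAut G) (M : Subgroup G) (hM : M.index = p)
    (hZM : center G ≤ M) (hα : ∀ x, x ∉ M → (α x) * x⁻¹ ∉ commutator G) :
    Nat.card (MulAction.orbitRel.Quotient (MulAut G) G) * p ≤ Nat.card G := by
  classical
  let _ := Fintype.ofFinite G
  let _ := Fintype.ofFinite (MulAction.orbitRel.Quotient (MulAut G) G)
  set F : G → ℕ := fun x => (Finset.univ.filter (fun y : G => orbMk y = orbMk x)).card with hF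
  have hpos : ∀ x, 1 ≤ F x := fun x => by
    have : x ∈ Finset.univ.filter (fun y : G => orbMk y = orbMk x) := by simp
    exact Finset.card_pos.mpr ⟨x, this⟩
  have hsub : ∀ x (β : MulAut G), Finset.univ.filter (fun y : G => IsConj (β x) y) ⊆
      Finset.univ.filter (fun y : G => orbMk y = orbMk x) := by
    intro x β y hy
    rw [Finset.mem_filter] at hy ⊢
    refine ⟨Finset.mem_univ _, ?_⟩
    obtain ⟨c, hc⟩ := isConj_iff.mp hy.2
    exact orbMk_eq (MulAut.conj c * β) (by simpa [MulAut.mul_apply] using hc)
  have hZchar : ∀ x, x ∉ center G → α x ∉ center G := by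
    intro x hx h
    apply hx
    rw [mem_center_iff] at h ⊢
    intro g
    apply α.injective
    rw [map_mul, map_mul]
    exact h (α g)
  have hnc : ∀ x, x ∉ center G → p ≤ F x := by
    intro x hx
    refine (le_card_class p hmin hx).trans (Finset.card_le_card ?_)
    simpa using hsub x 1
  have hnM : ∀ x, x ∉ M → 2 * p ≤ F x := by
    intro x hx
    have hxZ : x ∉ center G := fun h => hx (hZM h)
    have hdisj : Disjoint (Finset.univ.filter (fun y : G => IsConj x y))
        (Finset.univ.filter (fun y : G => IsConj (α x) y)) := by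
      rw [Finset.disjoint_left]
      intro y hy hy'
      have h1 : IsConj x y := (Finset.mem_filter.mp hy).2
      have h2 : IsConj (α x) y := (Finset.mem_filter.mp hy').2
      have h3 : IsConj x (α x) := h1.trans h2.symm
      obtain ⟨c, hc⟩ := isConj_iff.mp h3
      apply hα x hx
      rw [← hc]
      exact Subgroup.commutator_mem_commutator (mem_top c) (mem_top x)
    have h1 := le_card_class p hmin hxZ
    have h2 := le_card_class p hmin (hZchar x hxZ)
    have h3 : Finset.univ.filter (fun y : G => IsConj x y) ⊆
        Finset.univ.filter (fun y : G => orbMk y = orbMk x) := by simpa using hsub x 1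
    calc 2 * p ≤ (Finset.univ.filter (fun y : G => IsConj x y) ∪
          Finset.univ.filter (fun y : G => IsConj (α x) y)).card := by
          rw [Finset.card_union_of_disjoint hdisj]; omega
      _ ≤ F x := Finset.card_le_card (Finset.union_subset h3 (hsub x α))
  have hp0 : (0 : ℚ) < p := by exact_mod_cast hpp.pos
  have hbound : ∀ x : G, (p : ℚ) * (1 / (F x : ℚ)) ≤
      1 / 2 + (if x ∈ M then (1 / 2 : ℚ) else 0) + (if x ∈ center G then (p : ℚ) - 1 else 0) := by
    intro x
    have hFpos : (0 : ℚ) < F x := by exact_mod_cast hpos x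
    rw [mul_one_div, div_le_iff₀ hFpos]
    by_cases hxZ : x ∈ center G
    · have hxM := hZM hxZ
      rw [if_pos hxM, if_pos hxZ]
      have : (1 : ℚ) ≤ F x := by exact_mod_cast hpos x
      nlinarith
    · rw [if_neg hxZ]
      by_cases hxM : x ∈ M
      · rw [if_pos hxM]
        have : (p : ℚ) ≤ F x := by exact_mod_cast hnc x hxZ
        linarith
      · rw [if_neg hxM]
        have : (2 * p : ℚ) ≤ F x := by exact_mod_cast hnM x hxM
        linarith
  have hsum := card_orbits_eq_sum (G := G)
  have hcardQ : ((Nat.card (MulAction.orbitRel.Quotient (MulAut G) G) : ℕ) : ℚ) * p ≤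
      ∑ x : G, (1 / 2 + (if x ∈ M then (1 / 2 : ℚ) else 0) +
        (if x ∈ center G then (p : ℚ) - 1 else 0)) := by
    rw [Nat.card_eq_fintype_card, hsum, Finset.sum_mul]
    refine Finset.sum_le_sum fun x _ => ?_
    rw [mul_comm]
    exact hbound x
  have hcM : ((Finset.univ.filter (fun x : G => x ∈ M)).card : ℚ) = Nat.card M := by
    rw [Nat.card_eq_fintype_card, Fintype.card_subtype]
  have hcZ : ((Finset.univ.filter (fun x : G => x ∈ center G)).card : ℚ) = Nat.card (center G) := by
    rw [Nat.card_eq_fintype_card, Fintype.card_subtype]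
  have hS : ∑ x : G, (1 / 2 + (if x ∈ M then (1 / 2 : ℚ) else 0) +
        (if x ∈ center G then (p : ℚ) - 1 else 0)) =
      (Nat.card G : ℚ) / 2 + (Nat.card M : ℚ) / 2 + (Nat.card (center G) : ℚ) * (p - 1) := by
    rw [Finset.sum_add_distrib, Finset.sum_add_distrib, Finset.sum_ite, Finset.sum_ite]
    simp only [Finset.sum_const, Finset.sum_const_zero, add_zero, nsmul_eq_mul, Finset.card_univ]
    rw [hcM, hcZ, ← Nat.card_eq_fintype_card]
    ring
  have hM1 : (Nat.card M : ℚ) * p = Nat.card G := by
    have := Subgroup.card_mul_index M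
    rw [hM] at this
    exact_mod_cast this
  have hZ1 : (Nat.card (center G) : ℚ) * p ^ 2 ≤ Nat.card G := by
    have h1 := Subgroup.card_mul_index (center G)
    have h2 : Nat.card (center G) * p ^ 2 ≤ Nat.card G := by
      rw [← h1]; exact Nat.mul_le_mul_left _ hidx
    exact_mod_cast h2
  have hfinal : (Nat.card G : ℚ) / 2 + (Nat.card M : ℚ) / 2 + (Nat.card (center G) : ℚ) * (p - 1) ≤
      Nat.card G := by
    set m : ℚ := ((Nat.card M : ℕ) : ℚ)
    set z : ℚ := ((Nat.card (center G) : ℕ) : ℚ)
    set n : ℚ := ((Nat.card G : ℕ) : ℚ)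
    set P : ℚ := ((p : ℕ) : ℚ)
    have hP2 : (2 : ℚ) ≤ P := by
      have h0 : ((2 : ℕ) : ℚ) ≤ ((p : ℕ) : ℚ) := Nat.cast_le.mpr hpp.two_le
      simpa [P] using h0
    have hz0 : 0 ≤ z := Nat.cast_nonneg _
    have hm0 : 0 ≤ m := Nat.cast_nonneg _
    have h1 : z * P ≤ m := by
      have h2 : (z * P) * P ≤ m * P := by
        calc (z * P) * P = z * P ^ 2 := by ring
          _ ≤ n := hZ1
          _ = m * P := hM1.symm
      exact le_of_mul_le_mul_right h2 hp0
    have h3 : 2 * z ≤ m := by nlinarith
    have h4 : 2 * z * (P - 1) ≤ m * (P - 1) := by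
      apply mul_le_mul_of_nonneg_right h3; linarith
    rw [← hM1]
    nlinarith
  have hq : ((Nat.card (MulAction.orbitRel.Quotient (MulAut G) G) * p : ℕ) : ℚ) ≤ (Nat.card G : ℚ) := by
    push_cast
    calc _ ≤ _ := hcardQ
      _ = _ := hS
      _ ≤ _ := hfinal
  exact_mod_cast hq

/-- **The number of `Aut(G)`-orbits** of a non-abelian group is at most `|G|/p`. -/
theorem card_orbits_le (hna : ¬ ∀ a b : G, a * b = b * a) :
    Nat.card (MulAction.orbitRel.Quotient (MulAut G) G) ≤ Nat.card G / (Nat.card G).minFac := by
  classical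
  set n := Nat.card G with hn
  set p := n.minFac with hp
  have hn1 : n ≠ 1 := by
    intro h1
    have : Subsingleton G := (Nat.card_eq_one_iff_unique.mp h1).1
    exact hna fun a b => Subsingleton.elim _ _
  have hpp : p.Prime := Nat.minFac_prime hn1
  rw [Nat.le_div_iff_mul_le hpp.pos]
  by_cases hk : n < p * Nat.card (ConjClasses G)
  · -- few classes are not available: construct an automorphism
    have hcard : Nat.card (commutator G) = p := card_commutator_of_many_classes hna hk
    haveI : (commutator G).Normal := inferInstance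
    have hcen : commutator G ≤ center G := le_center_of_card_minFac _ hcard hn1
    have hmin : ∀ H : Subgroup G, H ≠ ⊤ → p ≤ H.index := by
      intro H hH
      apply Nat.minFac_le_of_dvd
      · have h1 : H.index ≠ 1 := fun h => hH (Subgroup.index_eq_one.mp h)
        have h2 : H.index ≠ 0 := Subgroup.index_ne_zero_of_finite
        omega
      · exact Subgroup.index_dvd_card H
    have hidx : p ^ 2 ≤ (center G).index := by
      have hZ : center G ≠ ⊤ := by
        intro h
        apply hna
        intro a b
        have h1 : a ∈ center G := by rw [h]; exact mem_top a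
        exact (mem_center_iff.mp h1 b).symm
      have hge := hmin _ hZ
      have h1 : (center G).index ≠ 0 := Subgroup.index_ne_zero_of_finite
      by_cases hpr : (center G).index.Prime
      · exfalso
        haveI : Fact (Nat.card (G ⧸ center G)).Prime := ⟨hpr⟩
        haveI : IsCyclic (G ⧸ center G) := isCyclic_of_prime_card rfl
        have := commutative_of_cyclic_center_quotient (QuotientGroup.mk' (center G)) (by
          rw [QuotientGroup.ker_mk'])
        exact hna this
      · have h2 := Nat.minFac_sq_le_self (Nat.pos_of_ne_zero h1) hpr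
        have h3 : p ≤ (center G).index.minFac := by
          apply Nat.minFac_le_of_dvd (Nat.minFac_prime (fun h => hZ (Subgroup.index_eq_one.mp h))).two_le
          exact (Nat.minFac_dvd _).trans (Subgroup.index_dvd_card _)
        exact (Nat.pow_le_pow_left h3 2).trans h2
    haveI : Fact p.Prime := ⟨hpp⟩
    obtain ⟨α, M, hM, hZM, hα⟩ := exists_auto hcen hcard hidx
    exact orbit_count p hpp hmin hidx α M hM hZM hα
  · -- many classes: the orbits are unions of classes
    push Not at hk
    have hsurj : Function.Surjective (fun C : ConjClasses G =>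
        (Quotient.liftOn' C orbMk (by
          intro a b hab
          have hab' : IsConj a b := hab
          obtain ⟨c, hc⟩ := isConj_iff.mp hab'
          exact (orbMk_eq (MulAut.conj c) (by simpa using hc)).symm) :
        MulAction.orbitRel.Quotient (MulAut G) G)) := by
      intro ω
      obtain ⟨x, rfl⟩ := orbMk_surj ω
      exact ⟨ConjClasses.mk x, rfl⟩
    have h1 := Nat.card_le_card_of_surjective _ hsurj
    calc Nat.card (MulAction.orbitRel.Quotient (MulAut G) G) * p ≤ Nat.card (ConjClasses G) * p :=
          Nat.mul_le_mul_right _ h1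
      _ = p * Nat.card (ConjClasses G) := Nat.mul_comm _ _
      _ ≤ n := hk

end Cfsg.Agent.Lib.AutOrb
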